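import Cfsg.Agent.H226.Tall.Defs

/-!
# S2927: the rows with transvections in the centralizer of a 2-central involution (helper176)
-/

set_option autoImplicit false

namespace Cfsg.Agent.H176.Tall

open Subgroup Cfsg Matrix
open Cfsg.Agent.H226.Tall

/-! ### Rank one nilpotent matrices -/

section lin

variable {F : Type*} [Field F] {n : ℕ}

/-- `N A N = tr(A N) N` -/
def R1 (N : Matrix (Fin n) (Fin n) F) : Prop := ∀ A : Matrix (Fin n) (Fin n) F, N * A * N = (A * N).trace • N

theorem r1_vec (u v : Fin n → F) : R1 (vecMulVec u v) := by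
  intro A
  rw [Matrix.mul_assoc, Matrix.mul_vecMulVec, Matrix.vecMulVec_mul_vecMulVec, Matrix.trace_vecMulVec]
  ext i j
  simp only [Matrix.vecMulVec_apply, Matrix.smul_apply, Pi.smul_apply, smul_eq_mul, dotProduct_comm v]
  ring

theorem R1.conj {N x y : Matrix (Fin n) (Fin n) F} (h : R1 N) : R1 (x * N * y) := by
  intro A
  have h1 : x * N * y * A * (x * N * y) = x * (N * (y * A * x) * N) * y := by
    simp only [Matrix.mul_assoc]
  have h2 : (A * (x * N * y)).trace = (y * A * x * N).trace := by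
    rw [Matrix.trace_mul_comm (y * A * x) N, Matrix.trace_mul_comm A]
    rw [show x * N * y * A = x * (N * (y * A)) by simp only [Matrix.mul_assoc], Matrix.trace_mul_comm x]
    simp only [Matrix.mul_assoc]
  rw [h1, h (y * A * x), h2]
  simp only [Matrix.mul_smul, Matrix.smul_mul, Matrix.mul_assoc]

/-- Two transvections `t'`, `t` with `(t' t⁻¹) ^ 2` scalar are equal. -/
theorem eq_of_sq (h2 : (2 : F) ≠ 0) (hn : (4 : F) ≠ 2 * n) {N N' : Matrix (Fin n) (Fin n) F} (h : R1 N) (h' : R1 N')
    (t0 : N.trace = 0) (t0' : N'.trace = 0) (hN : N ≠ 0) {μ : F}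
    (hs : (1 + N') * (1 - N) * ((1 + N') * (1 - N)) = μ • (1 : Matrix (Fin n) (Fin n) F)) : N' = N := by
  have a1 : N * N = 0 := by
    have := h 1
    rwa [Matrix.mul_one, Matrix.one_mul, t0, zero_smul] at this
  have a2 : N' * N' = 0 := by
    have := h' 1
    rwa [Matrix.mul_one, Matrix.one_mul, t0', zero_smul] at this
  obtain ⟨τ, hτ⟩ : ∃ τ, (N * N').trace = τ := ⟨_, rfl⟩
  have a3 : N' * N * N' = τ • N' := by rw [h' N, hτ]
  have a4 : N * N' * N = τ • N := by rw [h N', Matrix.trace_mul_comm, hτ]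
  -- the basic equation
  have E : (2 - τ) • (N' - N) + (τ - 3) • (N' * N) - N * N' = (μ - 1) • (1 : Matrix (Fin n) (Fin n) F) := by
    have e1 : (1 + N') * (1 - N) * ((1 + N') * (1 - N)) =
        1 + N' - N - N' * N + (N' + N' * N' - N' * N - N' * N' * N) - (N + N * N' - N * N - N * N' * N)
          - (N' * N + N' * N * N' - N' * (N * N) - N' * N * N' * N) := by
      noncomm_ring
    rw [e1, a1, a2, a3, a4] at hs
    have e2 : τ • N' * N = τ • (N' * N) := by rw [Matrix.smul_mul]
    rw [e2] at hs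
    have e3 : (2 - τ) • (N' - N) + (τ - 3) • (N' * N) - N * N' =
      (1 + N' - N - N' * N + (N' + 0 - N' * N - 0 * N) - (N + N * N' - 0 - τ • N)
          - (N' * N + τ • N' - N' * 0 - τ • (N' * N))) - 1 := by
      simp only [smul_sub, sub_smul, zero_mul, mul_zero]
      rw [show (3 : F) = 1 + 1 + 1 by norm_num, show (2 : F) = 1 + 1 by norm_num]
      simp only [add_smul, one_smul]
      abel
    rw [e3, hs, sub_smul, one_smul]
  -- left and right multiples
  have hb : (2 - τ) • (N * N') + ((τ - 3) * τ) • N = (μ - 1) • N := by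
    have := congrArg (fun X => N * X) E
    simp only [mul_sub, mul_add, Matrix.mul_smul, ← Matrix.mul_assoc, a1, a4, smul_smul, mul_one, sub_zero,
      zero_mul] at this
    exact this
  have hc : (2 - τ) • (N' * N) - τ • N = (μ - 1) • N := by
    have := congrArg (fun X => X * N) E
    simp only [sub_mul, add_mul, Matrix.smul_mul, Matrix.mul_assoc, a1, mul_zero, smul_zero, add_zero,
      sub_zero, one_mul] at this
    rwa [← Matrix.mul_assoc N, a4] at this
  have hd : ((2 - τ) * τ) • N = 0 := by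
    have := congrArg (fun X => X * N) hb
    simp only [add_mul, Matrix.smul_mul, a1, a4, smul_smul, smul_zero, add_zero] at this
    exact this
  have hτ2 : (2 - τ) * τ = 0 := by
    rcases smul_eq_zero.1 hd with h1 | h1
    · exact h1
    · exact absurd h1 hN
  rcases mul_eq_zero.1 hτ2 with h1 | h1
  · -- τ = 2
    exfalso
    have h3 : τ = 2 := by linear_combination -h1
    subst h3
    rw [sub_self, zero_smul, zero_sub, ← neg_smul] at hc
    have h4 : μ - 1 = -2 := by
      have h5 : (-(2 : F) - (μ - 1)) • N = 0 := by rw [sub_smul, hc, sub_self]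
      rcases smul_eq_zero.1 h5 with h6 | h6
      · linear_combination -h6
      · exact absurd h6 hN
    rw [sub_self, zero_smul, zero_add, h4] at E
    have h6 := congrArg Matrix.trace E
    rw [Matrix.trace_sub, Matrix.trace_smul, Matrix.trace_smul, Matrix.trace_one, Matrix.trace_mul_comm N' N, hτ,
      Fintype.card_fin, smul_eq_mul, smul_eq_mul] at h6
    apply hn
    linear_combination -h6
  · -- τ = 0
    subst h1
    rw [sub_zero, mul_zero, zero_smul, add_zero] at hb
    rw [sub_zero, zero_smul, sub_zero] at hc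
    have h3 : μ - 1 = 0 := by
      have h4 := congrArg (fun X => X * N') hb
      simp only [Matrix.smul_mul, Matrix.mul_assoc, a2, mul_zero, smul_zero] at h4
      rcases smul_eq_zero.1 h4.symm with h5 | h5
      · exact h5
      · rw [h5, smul_zero] at hb
        rcases smul_eq_zero.1 hb.symm with h6 | h6
        · exact h6
        · exact absurd h6 hN
    rw [h3, zero_smul] at hb hc E
    have h4 : N * N' = 0 := (smul_eq_zero.1 hb).resolve_left h2
    have h5 : N' * N = 0 := (smul_eq_zero.1 hc).resolve_left h2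
    rw [h4, h5, smul_zero, add_zero, sub_zero, sub_zero] at E
    exact sub_eq_zero.1 ((smul_eq_zero.1 E).resolve_left h2)

end lin

/-! ### Groups of matrices modulo scalars -/

/-- `H` is a group of matrices and its centre consists of the scalars -/
structure Dat {H : Type*} [Group H] {n : ℕ} {F : Type*} [Field F] (φ : H →* Matrix (Fin n) (Fin n) F) : Prop where
  inj : Function.Injective φ
  cen : ∀ x : H, x ∈ center H ↔ ∃ c : F, φ x = c • (1 : Matrix (Fin n) (Fin n) F)

section grp

variable {H : Type*} [Group H] {n : ℕ} {F : Type*} [Field F] {φ : H →* Matrix (Fin n) (Fin n) F}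

/-- four elements generating a 2-group -/
theorem isPGroup_closure {p j p' j' : H} (hp : p ^ 4 = 1) (hj : j ^ 4 = 1) (hpj : j * p * j⁻¹ = p⁻¹)
    (hp' : p' ^ 4 = 1) (hj' : j' ^ 4 = 1) (hpj' : j' * p' * j'⁻¹ = p'⁻¹) (c1 : Commute p p') (c2 : Commute p j')
    (c3 : Commute j p') (c4 : Commute j j') : IsPGroup 2 (closure ({p, j, p', j'} : Set H)) := by
  have hz : ∀ a : H, a ^ 4 = 1 → IsPGroup 2 (zpowers a) := by
    intro a ha
    rintro ⟨g, k, rfl⟩
    refine ⟨2, Subtype.ext ?_⟩
    show (a ^ k) ^ (2 ^ 2) = 1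
    rw [show (2 : ℕ) ^ 2 = 4 by norm_num, ← zpow_natCast, ← _root_.zpow_mul, mul_comm, _root_.zpow_mul]
    norm_cast
    rw [ha, _root_.one_zpow]
  have hs : ∀ a b : H, a ^ 4 = 1 → b ^ 4 = 1 → b * a * b⁻¹ = a⁻¹ → IsPGroup 2 (zpowers b ⊔ zpowers a : Subgroup H) := by
    intro a b ha hb hab
    refine IsPGroup.to_sup_of_normal_right' (hz b hb) (hz a ha) ?_
    rw [zpowers_le, mem_normalizer_iff]
    intro g
    constructor
    · rintro ⟨k, rfl⟩
      refine ⟨-k, ?_⟩
      show a ^ (-k) = b * a ^ k * b⁻¹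
      rw [← conj_zpow, hab, _root_.inv_zpow, _root_.zpow_neg]
    · rintro ⟨k, hk⟩
      refine ⟨-k, ?_⟩
      have hk' : a ^ k = b * g * b⁻¹ := hk
      show a ^ (-k) = g
      have h1 : b * a ^ (-k) * b⁻¹ = b * g * b⁻¹ := by
        rw [← hk', ← conj_zpow, hab, _root_.zpow_neg, _root_.inv_zpow, inv_inv]
      exact mul_left_cancel (mul_right_cancel h1)
  have h1 := hs p j hp hj hpj
  have h2 := hs p' j' hp' hj' hpj'
  have hc : (zpowers j' ⊔ zpowers p' : Subgroup H) ≤ centralizer ((zpowers j ⊔ zpowers p : Subgroup H) : Set H) := by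
    have hle : (zpowers j ⊔ zpowers p : Subgroup H) ≤ centralizer ({j', p'} : Set H) := by
      rw [sup_le_iff, zpowers_le, zpowers_le, mem_centralizer_iff, mem_centralizer_iff]
      refine ⟨?_, ?_⟩
      · rintro x (rfl | rfl)
        · exact c4.symm.eq
        · exact c3.symm.eq
      · rintro x (rfl | rfl)
        · exact c2.symm.eq
        · exact c1.symm.eq
    rw [sup_le_iff, zpowers_le, zpowers_le, mem_centralizer_iff, mem_centralizer_iff]
    refine ⟨fun x hx => ?_, fun x hx => ?_⟩
    · exact (mem_centralizer_iff.1 (hle hx) j' (by simp)).symm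
    · exact (mem_centralizer_iff.1 (hle hx) p' (by simp)).symm
  have h3 : IsPGroup 2 ((zpowers j' ⊔ zpowers p') ⊔ (zpowers j ⊔ zpowers p) : Subgroup H) :=
    IsPGroup.to_sup_of_normal_right' h2 h1 (hc.trans (centralizer_le_normalizer _))
  refine h3.to_le ?_
  rw [closure_le]
  rintro x (rfl | rfl | rfl | rfl)
  · exact mem_sup_right (mem_sup_right (mem_zpowers _))
  · exact mem_sup_right (mem_sup_left (mem_zpowers _))
  · exact mem_sup_left (mem_sup_right (mem_zpowers _))
  · exact mem_sup_left (mem_sup_left (mem_zpowers _))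

theorem Dat.mk_mul (D : Dat φ) {x e : H}
    (h : (QuotientGroup.mk' (center H) x) * (QuotientGroup.mk' (center H) e) =
      (QuotientGroup.mk' (center H) e) * (QuotientGroup.mk' (center H) x)) (ht : (φ e).trace ≠ 0) :
    φ x * φ e = φ e * φ x := by
  rw [← map_mul, ← map_mul, QuotientGroup.mk'_apply, QuotientGroup.mk'_apply, QuotientGroup.eq] at h
  obtain ⟨c, hc⟩ := (D.cen _).1 h
  have h1 : φ (e * x) = c • φ (x * e) := by
    have h2 : e * x = (x * e) * ((x * e)⁻¹ * (e * x)) := by group
    rw [h2, map_mul φ (x * e), hc, Matrix.mul_smul, Matrix.mul_one]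
  have h3 : (φ e).trace = c * (φ e).trace := by
    have h4 := congrArg (fun X => (X * φ x⁻¹).trace) h1
    simp only [map_mul, Matrix.smul_mul, Matrix.trace_smul, smul_eq_mul] at h4
    rw [Matrix.mul_assoc, ← map_mul, mul_inv_cancel, map_one, Matrix.mul_one] at h4
    rw [Matrix.trace_mul_comm (φ x * φ e), ← Matrix.mul_assoc, ← map_mul, inv_mul_cancel, map_one, Matrix.one_mul] at h4
    exact h4
  have h4 : c = 1 := by
    have h5 : (c - 1) * (φ e).trace = 0 := by linear_combination -h3
    rcases mul_eq_zero.1 h5 with h6 | h6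
    · linear_combination h6
    · exact absurd h6 ht
  rw [h4, one_smul, map_mul, map_mul] at h1
  exact h1.symm

/-- **The rows.** -/
theorem both_of_dat [Finite H] (D : Dat φ) (h2 : (2 : F) ≠ 0) (h3 : (3 : F) = 0) (hn : (4 : F) ≠ 2 * n) {z₀ : H}
    {E : Set H} (hE : IsPGroup 2 (closure E)) (htr : ∀ e ∈ E, (φ e).trace ≠ 0)
    (hEz : ∀ x : H, (∀ e ∈ E, φ x * φ e = φ e * φ x) → (∃ μ : F, φ x * φ x = μ • (1 : Matrix (Fin n) (Fin n) F)) →
      ∃ c : F, φ x = c • (1 : Matrix (Fin n) (Fin n) F) ∨ φ x = c • φ z₀)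
    {T : Set H} (hT : T.Nonempty) (hTz : ∀ t ∈ T, Commute z₀ t) (hT1 : ∀ t ∈ T, R1 (φ t - 1)) (hT2 : ∀ t ∈ T, (φ t - 1).trace = 0)
    (hT3 : ∀ t ∈ T, t ≠ 1)
    (hTx : ∀ x : H, (∀ t ∈ T, φ x * φ t = φ t * φ x) → (∃ μ : F, φ x * φ x = μ • (1 : Matrix (Fin n) (Fin n) F)) →
      ∃ c : F, φ x = c • (1 : Matrix (Fin n) (Fin n) F) ∨ φ x = c • φ z₀) : Both (H ⧸ center H) := by
  classical
  -- elements of the quotient
  have hend : ∀ x : H, (∃ c : F, φ x = c • (1 : Matrix (Fin n) (Fin n) F) ∨ φ x = c • φ z₀) →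
      QuotientGroup.mk' (center H) x = 1 ∨ QuotientGroup.mk' (center H) x = QuotientGroup.mk' (center H) z₀ := by
    rintro x ⟨c, h | h⟩
    · left
      rw [QuotientGroup.mk'_apply, QuotientGroup.eq_one_iff]
      exact (D.cen x).2 ⟨c, h⟩
    · right
      rw [QuotientGroup.mk'_apply, QuotientGroup.mk'_apply, QuotientGroup.eq, ← inv_mem_iff, _root_.mul_inv_rev, inv_inv]
      refine (D.cen _).2 ⟨c, ?_⟩
      rw [map_mul, h, Matrix.mul_smul, ← map_mul, inv_mul_cancel, map_one]
  -- every 2-central involution is conjugate to `z₀`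
  have hconj : ∀ z : H ⧸ center H, TwoC z → ∃ k : H ⧸ center H, k * z * k⁻¹ = QuotientGroup.mk' (center H) z₀ := by
    rintro z ⟨ho, P, hP⟩
    have hE' : IsPGroup 2 ((closure E).map (QuotientGroup.mk' (center H))) := hE.map _
    obtain ⟨P', hP'⟩ := hE'.exists_le_sylow
    obtain ⟨k, hk⟩ := MulAction.exists_smul_eq (H ⧸ center H) P P'
    refine ⟨k, ?_⟩
    obtain ⟨x, hx⟩ := QuotientGroup.mk'_surjective (center H) (k * z * k⁻¹)
    have hc : ∀ e ∈ E, φ x * φ e = φ e * φ x := by
      intro e he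
      refine D.mk_mul ?_ (htr e he)
      rw [hx]
      have h4 : QuotientGroup.mk' (center H) e ∈ (P' : Subgroup (H ⧸ center H)) :=
        hP' ⟨e, subset_closure he, rfl⟩
      rw [← hk, Sylow.coe_subgroup_smul, Subgroup.mem_pointwise_smul_iff_inv_smul_mem] at h4
      have h5 := mem_centralizer_singleton_iff.1 (hP h4)
      simp only [MulAut.smul_def, ← map_inv, MulAut.conj_apply, inv_inv] at h5
      have h6 := congrArg (fun w => k * w * k⁻¹) h5
      group at h6 ⊢
      exact h6.symm
    have hsq : ∃ μ : F, φ x * φ x = μ • (1 : Matrix (Fin n) (Fin n) F) := by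
      have h4 : (k * z * k⁻¹) * (k * z * k⁻¹) = 1 := by
        have h5 : z * z = 1 := by rw [← pow_two, ← ho, pow_orderOf_eq_one]
        rw [show k * z * k⁻¹ * (k * z * k⁻¹) = k * (z * z) * k⁻¹ by group, h5]
        group
      rw [← hx, ← map_mul, QuotientGroup.mk'_apply, QuotientGroup.eq_one_iff] at h4
      obtain ⟨μ, hμ⟩ := (D.cen _).1 h4
      exact ⟨μ, by rw [← map_mul, hμ]⟩
    rcases hend x (hEz x hc hsq) with h4 | h4
    · exfalso
      rw [hx] at h4
      have h5 : z = 1 := by
        have h6 : k⁻¹ * (k * z * k⁻¹) * k = 1 := by rw [h4]; group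
        rw [show k⁻¹ * (k * z * k⁻¹) * k = z by group] at h6
        exact h6
      rw [h5, orderOf_one] at ho
      omega
    · rw [← hx, h4]
  obtain ⟨t₀, ht₀⟩ := hT
  refine ⟨?_, ?_⟩
  · -- RowOne
    intro z hz _ W hW hzW hN w hw hα
    obtain ⟨k, hk⟩ := hconj z hz
    -- `k W k⁻¹` consists of `1` and `z₀`
    have key : ∀ v ∈ W, k * v * k⁻¹ = 1 ∨ k * v * k⁻¹ = k * z * k⁻¹ := by
      intro v hv
      obtain ⟨x, hx⟩ := QuotientGroup.mk'_surjective (center H) (k * v * k⁻¹)
      rw [hk, ← hx]
      apply hend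
      refine hTx x ?_ ?_
      · intro t ht
        -- the commutator with `t` squares to a scalar
        have h4 : k⁻¹ * QuotientGroup.mk' (center H) t * k ∈ centralizer ({z} : Set (H ⧸ center H)) := by
          rw [mem_centralizer_singleton_iff]
          have h5 : QuotientGroup.mk' (center H) z₀ * QuotientGroup.mk' (center H) t =
              QuotientGroup.mk' (center H) t * QuotientGroup.mk' (center H) z₀ := by
            rw [← map_mul, ← map_mul, (hTz t ht).eq]
          rw [← hk] at h5
          have h6 := congrArg (fun w => k⁻¹ * w * k) h5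
          have e1 : k⁻¹ * (k * z * k⁻¹ * QuotientGroup.mk' (center H) t) * k =
            z * (k⁻¹ * QuotientGroup.mk' (center H) t * k) := by group
          have e2 : k⁻¹ * (QuotientGroup.mk' (center H) t * (k * z * k⁻¹)) * k =
            (k⁻¹ * QuotientGroup.mk' (center H) t * k) * z := by group
          rw [e1, e2] at h6
          exact h6.symm
        have h5 := (mem_normalizer_iff.1 (hN h4) v⁻¹).1 (W.inv_mem hv)
        have h6 := hW _ (W.mul_mem hv h5)
        have h7 : QuotientGroup.mk' (center H) ((x * t * x⁻¹ * t⁻¹) * (x * t * x⁻¹ * t⁻¹)) = 1 := by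
          have e0 : v = k⁻¹ * QuotientGroup.mk' (center H) x * k := by rw [hx]; group
          rw [e0] at h6
          have h8 := congrArg (fun w => k * w * k⁻¹) h6
          simp only [map_mul, map_inv]
          rw [show k * 1 * k⁻¹ = 1 by group] at h8
          rw [← h8]
          group
        rw [QuotientGroup.mk'_apply, QuotientGroup.eq_one_iff] at h7
        obtain ⟨μ, hμ⟩ := (D.cen _).1 h7
        have ht' : φ t⁻¹ = 1 - (φ t - 1) := by
          have a1 : (φ t - 1) * (φ t - 1) = 0 := by
            have := hT1 t ht 1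
            rwa [Matrix.mul_one, Matrix.one_mul, hT2 t ht, zero_smul] at this
          have a2 : φ t * (1 - (φ t - 1)) = 1 := by
            have : φ t * (1 - (φ t - 1)) = 1 - (φ t - 1) * (φ t - 1) := by noncomm_ring
            rw [this, a1, sub_zero]
          calc φ t⁻¹ = φ t⁻¹ * (φ t * (1 - (φ t - 1))) := by rw [a2, Matrix.mul_one]
            _ = 1 - (φ t - 1) := by rw [← Matrix.mul_assoc, ← map_mul, inv_mul_cancel, map_one, Matrix.one_mul]
        have hx' : φ (x * t * x⁻¹) = 1 + φ x * (φ t - 1) * φ x⁻¹ := by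
          rw [map_mul, map_mul, Matrix.mul_sub, Matrix.sub_mul, Matrix.mul_one, ← map_mul φ x x⁻¹, mul_inv_cancel,
            map_one]
          abel
        have h8 : φ x * (φ t - 1) * φ x⁻¹ = φ t - 1 := by
          refine eq_of_sq h2 hn (hT1 t ht) (hT1 t ht).conj (hT2 t ht) ?_ ?_ (μ := μ) ?_
          · rw [Matrix.trace_mul_comm, ← Matrix.mul_assoc, ← map_mul, inv_mul_cancel, map_one, Matrix.one_mul, hT2 t ht]
          · intro h9
            apply hT3 t ht
            apply D.inj
            rw [map_one, ← sub_eq_zero, h9]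
          · rw [← hx', ← ht', ← map_mul, ← map_mul]
            exact hμ
        have h9 := congrArg (fun X => X * φ x) h8
        rw [Matrix.mul_assoc, ← map_mul, inv_mul_cancel, map_one, Matrix.mul_one, Matrix.mul_sub, Matrix.sub_mul,
          Matrix.mul_one, Matrix.one_mul] at h9
        exact sub_left_injective h9
      · have h4 : (k * v * k⁻¹) * (k * v * k⁻¹) = 1 := by
          rw [show k * v * k⁻¹ * (k * v * k⁻¹) = k * (v * v) * k⁻¹ by group, hW v hv]
          group
        rw [← hx, ← map_mul, QuotientGroup.mk'_apply, QuotientGroup.eq_one_iff] at h4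
        obtain ⟨μ, hμ⟩ := (D.cen _).1 h4
        exact ⟨μ, by rw [← map_mul, hμ]⟩
    rcases key w hw with h4 | h4
    · exfalso
      obtain ⟨α, hα⟩ := hα
      have h5 : w = 1 := by
        have h6 : k⁻¹ * (k * w * k⁻¹) * k = 1 := by rw [h4]; group
        rw [show k⁻¹ * (k * w * k⁻¹) * k = w by group] at h6
        exact h6
      rw [h5] at hα
      have h6 : z = 1 := by
        apply α.injective
        rw [hα, map_one]
      have h7 := hz.1
      rw [h6, orderOf_one] at h7
      omega
    · exact mul_left_cancel (mul_right_cancel h4)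
  · -- RowTwo
    intro z hz hP
    obtain ⟨k, hk⟩ := hconj z hz
    have h4 : k⁻¹ * QuotientGroup.mk' (center H) t₀ * k ∈ centralizer ({z} : Set (H ⧸ center H)) := by
      rw [mem_centralizer_singleton_iff]
      have h5 : QuotientGroup.mk' (center H) z₀ * QuotientGroup.mk' (center H) t₀ =
          QuotientGroup.mk' (center H) t₀ * QuotientGroup.mk' (center H) z₀ := by
        rw [← map_mul, ← map_mul, (hTz t₀ ht₀).eq]
      rw [← hk] at h5
      have h6 := congrArg (fun w => k⁻¹ * w * k) h5
      have e1 : k⁻¹ * (k * z * k⁻¹ * QuotientGroup.mk' (center H) t₀) * k =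
        z * (k⁻¹ * QuotientGroup.mk' (center H) t₀ * k) := by group
      have e2 : k⁻¹ * (QuotientGroup.mk' (center H) t₀ * (k * z * k⁻¹)) * k =
        (k⁻¹ * QuotientGroup.mk' (center H) t₀ * k) * z := by group
      rw [e1, e2] at h6
      exact h6.symm
    obtain ⟨m, hm⟩ := hP ⟨_, h4⟩
    have h5 : (k⁻¹ * QuotientGroup.mk' (center H) t₀ * k) ^ 2 ^ m = 1 := congrArg Subtype.val hm
    have h6 : (QuotientGroup.mk' (center H) t₀) ^ 2 ^ m = 1 := by
      have h7 : (k⁻¹ * QuotientGroup.mk' (center H) t₀ * k⁻¹⁻¹) ^ 2 ^ m = 1 := by rw [inv_inv]; exact h5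
      rw [conj_pow] at h7
      have h8 : k * (k⁻¹ * (QuotientGroup.mk' (center H) t₀) ^ 2 ^ m * k⁻¹⁻¹) * k⁻¹ = 1 := by rw [h7]; group
      rw [show k * (k⁻¹ * (QuotientGroup.mk' (center H) t₀) ^ 2 ^ m * k⁻¹⁻¹) * k⁻¹ =
        (QuotientGroup.mk' (center H) t₀) ^ 2 ^ m by group] at h8
      exact h8
    have a1 : (φ t₀ - 1) * (φ t₀ - 1) = 0 := by
      have := hT1 t₀ ht₀ 1
      rwa [Matrix.mul_one, Matrix.one_mul, hT2 t₀ ht₀, zero_smul] at this
    have h7 : t₀ ^ 3 = 1 := by
      apply D.inj
      rw [map_pow, map_one]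
      have e1 : φ t₀ = 1 + (φ t₀ - 1) := by abel
      have e2 : ∀ N : Matrix (Fin n) (Fin n) F, N * N = 0 → (1 + N) ^ 3 = 1 := by
        intro N hN
        have e3 : (1 + N) ^ 3 = 1 + ((1 : F) + 1 + 1) • N + ((1 : F) + 1 + 1) • (N * N) + N * (N * N) := by
          simp only [add_smul, one_smul]
          noncomm_ring
        have e4 : (1 : F) + 1 + 1 = 0 := by linear_combination h3
        rw [e3, e4, hN, zero_smul, mul_zero, zero_smul, add_zero, add_zero, add_zero]
      rw [e1]
      exact e2 _ a1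
    have h8 : (QuotientGroup.mk' (center H) t₀) ^ 3 = 1 := by rw [← map_pow, h7, map_one]
    have h9 : QuotientGroup.mk' (center H) t₀ = 1 := by
      have h10 : orderOf (QuotientGroup.mk' (center H) t₀) ∣ Nat.gcd (2 ^ m) 3 :=
        Nat.dvd_gcd (orderOf_dvd_of_pow_eq_one h6) (orderOf_dvd_of_pow_eq_one h8)
      rw [Nat.Coprime.gcd_eq_one (Nat.Coprime.pow_left m (by norm_num))] at h10
      exact orderOf_eq_one_iff.1 (Nat.dvd_one.1 h10)
    rw [QuotientGroup.mk'_apply, QuotientGroup.eq_one_iff] at h9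
    obtain ⟨c, hc⟩ := (D.cen _).1 h9
    -- a scalar transvection is trivial
    have h10 : (c - 1) * (c - 1) = 0 ∨ n = 0 := by
      rcases Nat.eq_zero_or_pos n with h | h
      · exact Or.inr h
      · left
        rw [hc] at a1
        have e5 : (c • (1 : Matrix (Fin n) (Fin n) F) - 1) * (c • 1 - 1) = ((c - 1) * (c - 1)) • 1 := by
          rw [show (c • (1 : Matrix (Fin n) (Fin n) F) - 1) = (c - 1) • 1 by rw [sub_smul, one_smul], Matrix.smul_mul,
            Matrix.mul_smul, Matrix.one_mul, smul_smul]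
        rw [e5] at a1
        have e6 := congrFun (congrFun a1 ⟨0, h⟩) ⟨0, h⟩
        simpa using e6
    apply hT3 t₀ ht₀
    apply D.inj
    rcases h10 with h10 | h10
    · have h11 : c = 1 := by
        rcases mul_self_eq_zero.1 h10 with h12
        linear_combination h12
      rw [hc, h11, one_smul, map_one]
    · subst h10
      exact Matrix.ext fun i => i.elim0

end grp

end Cfsg.Agent.H176.Tall
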