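import Cfsg.Agent.H176.Tall.Blk

/-!
# S2927: `PSL₄(3)` (helper176)
-/

set_option autoImplicit false

namespace Cfsg.Agent.H176.Tall

open Subgroup Cfsg Matrix
open Cfsg.Agent.H226.Tall

section four

variable {F : Type*} [Field F]

/-- The end of the proof: `x = diag(a, a, b, b)`, `x ^ 2` scalar. -/
theorem end_four {X : Matrix (Fin 4) (Fin 4) F} (h : X = diagonal ![X 0 0, X 0 0, X 2 2, X 2 2])
    (hs : ∃ μ : F, X * X = μ • (1 : Matrix (Fin 4) (Fin 4) F)) :
    ∃ c : F, X = c • (1 : Matrix (Fin 4) (Fin 4) F) ∨ X = c • diagonal ![1, 1, -1, -1] := by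
  obtain ⟨μ, hμ⟩ := hs
  rw [h] at hμ
  have h0 := congrFun (congrFun hμ 0) 0
  have h2 := congrFun (congrFun hμ 2) 2
  simp at h0 h2
  have h3 : (X 2 2 - X 0 0) * (X 2 2 + X 0 0) = 0 := by linear_combination h2 - h0
  refine ⟨X 0 0, ?_⟩
  rcases mul_eq_zero.1 h3 with h4 | h4
  · left
    rw [h, show X 2 2 = X 0 0 by linear_combination h4]
    ext i k
    fin_cases i <;> fin_cases k <;> simp
  · right
    rw [h, show X 2 2 = -X 0 0 by linear_combination h4]
    ext i k
    fin_cases i <;> fin_cases k <;> simp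

/-- entries of `X * A = A * X` -/
theorem ent {X A : Matrix (Fin 4) (Fin 4) F} (h : X * A = A * X) (i k : Fin 4) :
    X i 0 * A 0 k + X i 1 * A 1 k + X i 2 * A 2 k + X i 3 * A 3 k =
      A i 0 * X 0 k + A i 1 * X 1 k + A i 2 * X 2 k + A i 3 * X 3 k := by
  have := congrFun (congrFun h i) k
  rwa [Matrix.mul_apply, Matrix.mul_apply, Fin.sum_univ_four, Fin.sum_univ_four] at this

def mP (F : Type*) [Field F] : Matrix (Fin 4) (Fin 4) F := !![0, 1, 0, 0; -1, 0, 0, 0; 0, 0, 1, 0; 0, 0, 0, 1]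
def mP' (F : Type*) [Field F] : Matrix (Fin 4) (Fin 4) F := !![1, 0, 0, 0; 0, 1, 0, 0; 0, 0, 0, 1; 0, 0, -1, 0]
def mJ (F : Type*) [Field F] : Matrix (Fin 4) (Fin 4) F := !![1, 1, 0, 0; 1, -1, 0, 0; 0, 0, 1, 0; 0, 0, 0, 1]
def mJ' (F : Type*) [Field F] : Matrix (Fin 4) (Fin 4) F := !![1, 0, 0, 0; 0, 1, 0, 0; 0, 0, 1, 1; 0, 0, 1, -1]

theorem diag_of_pj (h2 : (2 : F) ≠ 0) {X : Matrix (Fin 4) (Fin 4) F} (h1 : X * mP F = mP F * X) (h1' : X * mP' F = mP' F * X)
    (h3 : X * mJ F = mJ F * X) (h3' : X * mJ' F = mJ' F * X) : X = diagonal ![X 0 0, X 0 0, X 2 2, X 2 2] := by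
  have key : ∀ a : F, a = -a → a = 0 := by
    intro a ha
    have : (2 : F) * a = 0 := by linear_combination ha
    exact (mul_eq_zero.1 this).resolve_left h2
  have e02 := ent h1 0 2
  have e12 := ent h1 1 2
  have e03 := ent h1 0 3
  have e13 := ent h1 1 3
  have e20 := ent h1 2 0
  have e21 := ent h1 2 1
  have e30 := ent h1 3 0
  have e31 := ent h1 3 1
  have e00 := ent h1 0 0
  have e01 := ent h1 0 1
  have f00 := ent h3 0 0
  have e22 := ent h1' 2 2
  have e23 := ent h1' 2 3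
  have f22 := ent h3' 2 2
  simp [mP, mP', mJ, mJ'] at e02 e12 e03 e13 e20 e21 e30 e31 e00 e01 f00 e22 e23 f22
  have z02 : X 0 2 = 0 := key _ (by rw [← e12, ← e02])
  have z12 : X 1 2 = 0 := by rw [← e02, z02]
  have z03 : X 0 3 = 0 := key _ (by rw [← e13, ← e03])
  have z13 : X 1 3 = 0 := by rw [← e03, z03]
  have z21 : X 2 1 = 0 := key _ (by rw [e20, e21])
  have z20 : X 2 0 = 0 := by rw [e21, z21]
  have z31 : X 3 1 = 0 := key _ (by rw [e30, e31])
  have z30 : X 3 0 = 0 := by rw [e31, z31]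
  have z01 : X 0 1 = 0 := key _ (by rw [e00, f00])
  have z10 : X 1 0 = 0 := by rw [← f00, z01]
  have z23 : X 2 3 = 0 := key _ (by rw [e22, f22])
  have z32 : X 3 2 = 0 := by rw [← f22, z23]
  ext i k
  fin_cases i <;> fin_cases k <;>
    simp [z02, z12, z03, z13, z21, z20, z31, z30, z01, z10, z23, z32, ← e01, ← e23]

theorem det_mP : (mP F).det = 1 := by
  simp [mP, Matrix.det_succ_row_zero, Fin.sum_univ_succ, Fin.succAbove]

theorem det_mP' : (mP' F).det = 1 := by
  simp [mP', Matrix.det_succ_row_zero, Fin.sum_univ_succ, Fin.succAbove]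

theorem det_mJ (h3 : (3 : F) = 0) : (mJ F).det = 1 := by
  simp [mJ, Matrix.det_succ_row_zero, Fin.sum_univ_succ, Fin.succAbove]
  linear_combination -h3

theorem det_mJ' (h3 : (3 : F) = 0) : (mJ' F).det = 1 := by
  simp [mJ', Matrix.det_succ_row_zero, Fin.sum_univ_succ, Fin.succAbove]
  linear_combination -h3

/-- the transvections -/
def mE (F : Type*) [Field F] (i k : Fin 4) : Matrix (Fin 4) (Fin 4) F := 1 + vecMulVec (Pi.single i 1) (Pi.single k 1)

theorem diag_of_t {X : Matrix (Fin 4) (Fin 4) F} (h01 : X * mE F 0 1 = mE F 0 1 * X) (h10 : X * mE F 1 0 = mE F 1 0 * X)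
    (h23 : X * mE F 2 3 = mE F 2 3 * X) (h32 : X * mE F 3 2 = mE F 3 2 * X) :
    X = diagonal ![X 0 0, X 0 0, X 2 2, X 2 2] := by
  have w : ∀ i k : Fin 4, X * mE F i k = mE F i k * X →
      X * vecMulVec (Pi.single i 1) (Pi.single k 1) = vecMulVec (Pi.single i 1) (Pi.single k 1) * X := by
    intro i k h
    rw [mE, Matrix.mul_add, Matrix.add_mul, Matrix.mul_one, Matrix.one_mul] at h
    exact add_left_cancel h
  have a01 := w _ _ h01
  have a10 := w _ _ h10
  have a23 := w _ _ h23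
  have a32 := w _ _ h32
  have e10 := ent a01 1 1
  have e20 := ent a01 2 1
  have e30 := ent a01 3 1
  have e12 := ent a01 0 2
  have e13 := ent a01 0 3
  have e00 := ent a01 0 1
  have f01 := ent a10 0 0
  have f21 := ent a10 2 0
  have f31 := ent a10 3 0
  have f02 := ent a10 1 2
  have f03 := ent a10 1 3
  have g32 := ent a23 3 3
  have g22 := ent a23 2 3
  have k23 := ent a32 2 2
  simp [vecMulVec_apply] at e10 e20 e30 e12 e13 e00 f01 f21 f31 f02 f03 g32 g22 k23
  ext i k
  fin_cases i <;> fin_cases k <;>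
    simp [e10, e20, e30, e12.symm, e13.symm, ← e00, f01, f21, f31, f02.symm, f03.symm, g32, ← g22, k23]

end four

/-! ### `PSL₄(3)` -/

section psl

variable {F : Type*} [Field F] [Fintype F]

theorem three_zero (hF : Fintype.card F = 3) : (3 : F) = 0 := by
  have := Nat.cast_card_eq_zero F
  rw [hF] at this
  exact_mod_cast this

omit [Fintype F] in
theorem two_ne (h3 : (3 : F) = 0) : (2 : F) ≠ 0 := by
  intro h
  exact one_ne_zero (α := F) (by linear_combination h3 - h)

omit [Fintype F] in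
theorem dat_of {H : Type*} [Group H] {n : ℕ} {φ : H →* Matrix (Fin n) (Fin n) F} (hi : Function.Injective φ)
    (hc : ∀ x ∈ center H, ∃ c : F, φ x = c • (1 : Matrix (Fin n) (Fin n) F)) : Dat φ := by
  refine ⟨hi, fun x => ⟨hc x, ?_⟩⟩
  rintro ⟨c, h⟩
  rw [mem_center_iff]
  intro y
  apply hi
  rw [map_mul, map_mul, h, Matrix.mul_smul, Matrix.smul_mul, Matrix.mul_one, Matrix.one_mul]

/-- the matrix of an element of `SL_n` -/
def slM (n : ℕ) (F : Type*) [Field F] : SpecialLinearGroup (Fin n) F →* Matrix (Fin n) (Fin n) F where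
  toFun A := A.1
  map_one' := rfl
  map_mul' _ _ := rfl

omit [Fintype F] in
theorem dat_sl {n : ℕ} : Dat (slM n F) := by
  refine dat_of (fun x y h => Subtype.ext h) fun x hx => ?_
  obtain ⟨r, _, hr⟩ := Matrix.SpecialLinearGroup.mem_center_iff.1 hx
  refine ⟨r, ?_⟩
  show x.1 = _
  rw [← hr]
  ext i k
  simp [Matrix.scalar_apply, Matrix.diagonal_apply, Matrix.one_apply]

omit [Fintype F] in
theorem det_one_add_vec {n : ℕ} (u v : Fin n → F) (h : v ⬝ᵥ u = 0) :
    (1 + vecMulVec u v : Matrix (Fin n) (Fin n) F).det = 1 := by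
  rw [Matrix.vecMulVec_eq Unit, Matrix.det_one_add_replicateCol_mul_replicateRow, h, add_zero]

omit [Fintype F] in
theorem det_mE {i k : Fin 4} (hik : i ≠ k) : (mE F i k).det = 1 := by
  rw [mE]
  refine det_one_add_vec _ _ ?_
  simp [hik.symm]

def sE (F : Type*) [Field F] (i k : Fin 4) (hik : i ≠ k) : SpecialLinearGroup (Fin 4) F := ⟨mE F i k, det_mE hik⟩

def sZ (F : Type*) [Field F] : SpecialLinearGroup (Fin 4) F := ⟨diagonal ![1, 1, -1, -1], by simp [Fin.prod_univ_four]⟩

omit [Fintype F] in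
theorem quat {H : Type*} [Group H] {p j : H} (h : p * j * p = j) : j * p * j⁻¹ = p⁻¹ := by
  have : p * (j * p * j⁻¹) = 1 := by
    rw [← mul_assoc, ← mul_assoc, h, mul_inv_cancel]
  exact (inv_eq_of_mul_eq_one_right this).symm

omit [Fintype F] in
theorem sE_r1 (i k : Fin 4) (hik : i ≠ k) : R1 (slM 4 F (sE F i k hik) - 1) := by
  have : slM 4 F (sE F i k hik) - 1 = vecMulVec (Pi.single i 1) (Pi.single k 1) := by
    show mE F i k - 1 = _
    rw [mE, add_sub_cancel_left]
  rw [this]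
  exact r1_vec _ _

omit [Fintype F] in
theorem sE_tr (i k : Fin 4) (hik : i ≠ k) : (slM 4 F (sE F i k hik) - 1).trace = 0 := by
  have : slM 4 F (sE F i k hik) - 1 = vecMulVec (Pi.single i 1) (Pi.single k 1) := by
    show mE F i k - 1 = _
    rw [mE, add_sub_cancel_left]
  rw [this, Matrix.trace_vecMulVec]
  simp [hik]

omit [Fintype F] in
theorem sE_ne (i k : Fin 4) (hik : i ≠ k) : sE F i k hik ≠ 1 := by
  intro h
  have h1 : mE F i k = 1 := congrArg Subtype.val h
  rw [mE, add_eq_left] at h1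
  have h2 := congrFun (congrFun h1 i) k
  simp [vecMulVec_apply] at h2

omit [Fintype F] in
theorem sE_comm (i k : Fin 4) (hik : i ≠ k) (hd : (![1, 1, -1, -1] : Fin 4 → F) i = (![1, 1, -1, -1] : Fin 4 → F) k) :
    Commute (sZ F) (sE F i k hik) := by
  apply Subtype.ext
  show diagonal ![1, 1, -1, -1] * mE F i k = mE F i k * diagonal ![1, 1, -1, -1]
  rw [mE, Matrix.mul_add, Matrix.add_mul, Matrix.mul_one, Matrix.one_mul]
  congr 1
  ext a b
  rw [Matrix.diagonal_mul, Matrix.mul_diagonal, vecMulVec_apply]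
  by_cases ha : a = i
  · by_cases hb : b = k
    · subst ha; subst hb
      rw [hd]; ring
    · simp [hb]
  · simp [ha]

theorem both_psl4 (hF : Fintype.card F = 3) : Both (ProjectiveSpecialLinearGroup (Fin 4) F) := by
  have h3 : (3 : F) = 0 := three_zero hF
  have h2 : (2 : F) ≠ 0 := two_ne h3
  have h11 : (1 : F) + 1 = -1 := by linear_combination h3
  let p : SpecialLinearGroup (Fin 4) F := ⟨mP F, det_mP⟩
  let p' : SpecialLinearGroup (Fin 4) F := ⟨mP' F, det_mP'⟩
  let j : SpecialLinearGroup (Fin 4) F := ⟨mJ F, det_mJ h3⟩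
  let j' : SpecialLinearGroup (Fin 4) F := ⟨mJ' F, det_mJ' h3⟩
  have hpjp : p * j * p = j := by
    apply Subtype.ext
    show mP F * mJ F * mP F = mJ F
    ext i k
    fin_cases i <;> fin_cases k <;> simp [mP, mJ, Matrix.mul_apply, Fin.sum_univ_four]
  have hpjp' : p' * j' * p' = j' := by
    apply Subtype.ext
    show mP' F * mJ' F * mP' F = mJ' F
    ext i k
    fin_cases i <;> fin_cases k <;> simp [mP', mJ', Matrix.mul_apply, Fin.sum_univ_four]
  have c1 : Commute p p' := by
    apply Subtype.ext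
    show mP F * mP' F = mP' F * mP F
    ext i k
    fin_cases i <;> fin_cases k <;> simp [mP, mP', Matrix.mul_apply, Fin.sum_univ_four]
  have c2 : Commute p j' := by
    apply Subtype.ext
    show mP F * mJ' F = mJ' F * mP F
    ext i k
    fin_cases i <;> fin_cases k <;> simp [mP, mJ', Matrix.mul_apply, Fin.sum_univ_four]
  have c3 : Commute j p' := by
    apply Subtype.ext
    show mJ F * mP' F = mP' F * mJ F
    ext i k
    fin_cases i <;> fin_cases k <;> simp [mJ, mP', Matrix.mul_apply, Fin.sum_univ_four]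
  have c4 : Commute j j' := by
    apply Subtype.ext
    show mJ F * mJ' F = mJ' F * mJ F
    ext i k
    fin_cases i <;> fin_cases k <;> simp [mJ, mJ', Matrix.mul_apply, Fin.sum_univ_four]
  have sq : ∀ A : Matrix (Fin 4) (Fin 4) F, ∀ d : Fin 4 → F, A * A = diagonal d → (∀ i, d i * d i = 1) → A ^ 4 = 1 := by
    intro A d h hd
    have h5 : A ^ 4 = A * A * (A * A) := by noncomm_ring
    rw [h5, h, Matrix.diagonal_mul_diagonal, show (fun i => d i * d i) = fun _ => 1 from funext hd, Matrix.diagonal_one]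
  have hp4 : p ^ 4 = 1 := by
    apply Subtype.ext
    show mP F ^ 4 = 1
    refine sq _ ![-1, -1, 1, 1] ?_ ?_
    · ext i k
      fin_cases i <;> fin_cases k <;> simp [mP, Matrix.mul_apply, Fin.sum_univ_four]
    · intro i
      fin_cases i <;> simp
  have hp4' : p' ^ 4 = 1 := by
    apply Subtype.ext
    show mP' F ^ 4 = 1
    refine sq _ ![1, 1, -1, -1] ?_ ?_
    · ext i k
      fin_cases i <;> fin_cases k <;> simp [mP', Matrix.mul_apply, Fin.sum_univ_four]
    · intro i
      fin_cases i <;> simp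
  have hj4 : j ^ 4 = 1 := by
    apply Subtype.ext
    show mJ F ^ 4 = 1
    refine sq _ ![-1, -1, 1, 1] ?_ ?_
    · ext i k
      fin_cases i <;> fin_cases k <;> simp [mJ, Matrix.mul_apply, Fin.sum_univ_four, h11]
    · intro i
      fin_cases i <;> simp
  have hj4' : j' ^ 4 = 1 := by
    apply Subtype.ext
    show mJ' F ^ 4 = 1
    refine sq _ ![1, 1, -1, -1] ?_ ?_
    · ext i k
      fin_cases i <;> fin_cases k <;> simp [mJ', Matrix.mul_apply, Fin.sum_univ_four, h11]
    · intro i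
      fin_cases i <;> simp
  refine both_of_dat (φ := slM 4 F) dat_sl h2 h3 ?_ (z₀ := sZ F)
    (isPGroup_closure hp4 hj4 (quat hpjp) hp4' hj4' (quat hpjp') c1 c2 c3 c4) ?_ ?_
    (T := {sE F 0 1 (by decide), sE F 1 0 (by decide), sE F 2 3 (by decide), sE F 3 2 (by decide)}) ?_ ?_ ?_ ?_ ?_ ?_
  · push_cast
    intro h
    apply h2
    have : (4 : F) = 0 := by linear_combination -h
    linear_combination 2 * h3 - this
  · rintro e (rfl | rfl | rfl | rfl)
    · show (mP F).trace ≠ 0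
      simpa [mP, Matrix.trace, Fin.sum_univ_four, one_add_one_eq_two] using h2
    · show (mJ F).trace ≠ 0
      simpa [mJ, Matrix.trace, Fin.sum_univ_four, one_add_one_eq_two] using h2
    · show (mP' F).trace ≠ 0
      simpa [mP', Matrix.trace, Fin.sum_univ_four, one_add_one_eq_two] using h2
    · show (mJ' F).trace ≠ 0
      simpa [mJ', Matrix.trace, Fin.sum_univ_four, one_add_one_eq_two] using h2
  · intro x hx hs
    exact end_four (diag_of_pj h2 (hx p (by simp)) (hx p' (by simp)) (hx j (by simp)) (hx j' (by simp))) hs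
  · exact ⟨sE F 0 1 (by decide), by simp⟩
  · rintro t (rfl | rfl | rfl | rfl)
    · exact sE_comm _ _ _ rfl
    · exact sE_comm _ _ _ rfl
    · exact sE_comm _ _ _ rfl
    · exact sE_comm _ _ _ rfl
  · rintro t (rfl | rfl | rfl | rfl) <;> exact sE_r1 _ _ _
  · rintro t (rfl | rfl | rfl | rfl) <;> exact sE_tr _ _ _
  · rintro t (rfl | rfl | rfl | rfl) <;> exact sE_ne _ _ _
  · intro x hx hs
    have w1 := hx (sE F 0 1 (by decide)) (Or.inl rfl)
    have w2 := hx (sE F 1 0 (by decide)) (Or.inr (Or.inl rfl))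
    have w3 := hx (sE F 2 3 (by decide)) (Or.inr (Or.inr (Or.inl rfl)))
    have w4 := hx (sE F 3 2 (by decide)) (Or.inr (Or.inr (Or.inr rfl)))
    exact end_four (diag_of_t w1 w2 w3 w4) hs

end psl

end Cfsg.Agent.H176.Tall
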