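import Cfsg.Agent.H176.Tall.FourU

/-!
# S2927, task [SM2]: `PSL₄(3)` and `PSU₄(3)` (helper176)
-/

set_option autoImplicit false

namespace Cfsg.Agent.H176.Tall

open Cfsg.Agent.H226.Tall

theorem both_l43 {F : Type*} [Field F] [Fintype F] (hF : Fintype.card F = 3) :
    Both (Matrix.ProjectiveSpecialLinearGroup (Fin 4) F) := both_psl4 hF

theorem both_u43 {F : Type*} [Field F] [Fintype F] (hF : Fintype.card F = 9) : Both (Cfsg.PSU 4 F 3) := both_psu4 hF

end Cfsg.Agent.H176.Tall
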